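import Cfsg.Agent.H670.Reg.Defs
import Cfsg.Agent.H113.PSL.Main

/-!
# S4919, KFOUR-A: `Kite` for `PSL₃(q)`, `q = 5, 7, 8, 17`, and `PSL₄(3)` (helper128, task 2898)
-/

set_option autoImplicit false
set_option linter.unusedSectionVars false

namespace Cfsg.Agent.H128.KitePsl

open Cfsg Matrix
open Cfsg.Agent.H671.H5 Cfsg.Agent.H670.Reg Cfsg.Agent.H113.PSL Cfsg.Agent.H113.PSL.Facts
open Cfsg.Agent.H113.PSL.Degrees Cfsg.Agent.H113.PSL.Three

universe u v w

theorem kite_congr {S : Type u} {T : Type v} [Group S] [Group T] (e : S ≃* T) (h : Kite T) : Kite S := by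
  have h1 : ∀ a b, Adj a b S ↔ Adj a b T := fun a b => by
    unfold Adj
    rw [Cfsg.Agent.H424.DegTools.degreeGraph_congr e]
  unfold Kite at h ⊢
  simp only [h1]
  exact h

variable {F : Type u} [Field F] [Fintype F]

/-- the kite from two characters sharing the primes `a`, `b` -/
theorem kite_of {S : Type v} [Group S] {a b c d : ℕ} (ha : a.Prime) (hb : b.Prime) (hc : c.Prime) (hd : d.Prime)
    (hab : a ≠ b) (hac : a ≠ c) (hbc : b ≠ c) (had : a ≠ d) (hbd : b ≠ d) (hcd : c ≠ d) {φ ψ₁ ψ₂ ψ₃ ψ₄ : IrrCharacter S}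
    (h1 : a * b ∣ charDegree (φ : S → ℂ)) (h2 : a * c ∣ charDegree (ψ₁ : S → ℂ)) (h3 : b * c ∣ charDegree (ψ₂ : S → ℂ))
    (h4 : a * d ∣ charDegree (ψ₃ : S → ℂ)) (h5 : b * d ∣ charDegree (ψ₄ : S → ℂ)) : Kite S :=
  Or.inl ⟨a, b, c, d, hcd,
    adj_of ha hb hab (dvd_of_mul_right_dvd h1) (dvd_of_mul_left_dvd h1),
    adj_of ha hc hac (dvd_of_mul_right_dvd h2) (dvd_of_mul_left_dvd h2),
    adj_of hb hc hbc (dvd_of_mul_right_dvd h3) (dvd_of_mul_left_dvd h3),
    adj_of ha hd had (dvd_of_mul_right_dvd h4) (dvd_of_mul_left_dvd h4),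
    adj_of hb hd hbd (dvd_of_mul_right_dvd h5) (dvd_of_mul_left_dvd h5)⟩

theorem kite_five (h : Fintype.card F = 5) : Kite (ProjectiveSpecialLinearGroup (Fin 3) F) := by
  classical
  obtain ⟨φ, t, ht, hφ⟩ := exists_ps (F := F) (by omega)
  obtain ⟨ψ, hψ⟩ := t3 (F := F) (n := 3) (by norm_num)
  rw [h] at ht hφ hψ
  norm_num at ht
  subst ht
  have h1 : charDegree (φ : ProjectiveSpecialLinearGroup (Fin 3) F → ℂ) = 186 := by omega
  have h2 : charDegree (ψ : ProjectiveSpecialLinearGroup (Fin 3) F → ℂ) = 30 := by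
    rw [hψ]; simp [Finset.sum_range_succ]
  exact kite_of (a := 2) (b := 3) (c := 31) (d := 5) (by norm_num) (by norm_num) (by norm_num) (by norm_num)
    (by norm_num) (by norm_num) (by norm_num) (by norm_num) (by norm_num) (by norm_num)
    (φ := φ) (ψ₁ := φ) (ψ₂ := φ) (ψ₃ := ψ) (ψ₄ := ψ)
    (by rw [h1]; norm_num) (by rw [h1]; norm_num) (by rw [h1]; norm_num) (by rw [h2]; norm_num) (by rw [h2]; norm_num)

theorem kite_seventeen (h : Fintype.card F = 17) : Kite (ProjectiveSpecialLinearGroup (Fin 3) F) := by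
  classical
  obtain ⟨φ, t, ht, hφ⟩ := exists_ps (F := F) (by omega)
  obtain ⟨ψ, hψ⟩ := t3 (F := F) (n := 3) (by norm_num)
  rw [h] at ht hφ hψ
  norm_num at ht
  subst ht
  have h1 : charDegree (φ : ProjectiveSpecialLinearGroup (Fin 3) F → ℂ) = 5526 := by omega
  have h2 : charDegree (ψ : ProjectiveSpecialLinearGroup (Fin 3) F → ℂ) = 306 := by
    rw [hψ]; simp [Finset.sum_range_succ]
  exact kite_of (a := 2) (b := 3) (c := 307) (d := 17) (by norm_num) (by norm_num) (by norm_num) (by norm_num)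
    (by norm_num) (by norm_num) (by norm_num) (by norm_num) (by norm_num) (by norm_num)
    (φ := φ) (ψ₁ := φ) (ψ₂ := φ) (ψ₃ := ψ) (ψ₄ := ψ)
    (by rw [h1]; norm_num) (by rw [h1]; norm_num) (by rw [h1]; norm_num) (by rw [h2]; norm_num) (by rw [h2]; norm_num)

theorem kite_eight (h : Fintype.card F = 8) : Kite (ProjectiveSpecialLinearGroup (Fin 3) F) := by
  classical
  have hC : ∀ m, 1 ≤ m → HasCusp F m := fun m hm => Main.hasCusp F m hm
  obtain ⟨φ, t, ht, hφ⟩ := exists_ps (F := F) (by omega)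
  obtain ⟨ψ, hψ⟩ := t3 (F := F) (n := 3) (by norm_num)
  obtain ⟨σ, s, hs, hσ⟩ := exists_st (F := F) (by omega) (by omega)
  obtain ⟨α, hα⟩ := exA (F := F) (n := 3) (by norm_num) (hC 3 (by norm_num))
  obtain ⟨β, hβ⟩ := exB (F := F) (n := 3) (by norm_num) (hC 2 (by norm_num))
  rw [h] at ht hφ hψ hs hσ
  norm_num at ht hs
  subst ht hs
  have h1 : charDegree (φ : ProjectiveSpecialLinearGroup (Fin 3) F → ℂ) = 657 := by omega
  have h2 : charDegree (ψ : ProjectiveSpecialLinearGroup (Fin 3) F → ℂ) = 72 := by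
    rw [hψ]; simp [Finset.sum_range_succ]
  have h3 : charDegree (σ : ProjectiveSpecialLinearGroup (Fin 3) F → ℂ) = 584 := by omega
  have h4 : 3 * 7 ∣ charDegree (α : ProjectiveSpecialLinearGroup (Fin 3) F → ℂ) :=
    Nat.Coprime.mul_dvd_of_dvd_of_dvd (by norm_num) (hα 3 ⟨2, by norm_num, by norm_num, by rw [h]; norm_num⟩)
      (hα 7 ⟨1, by norm_num, by norm_num, by rw [h]; norm_num⟩)
  have h5 : 73 * 7 ∣ charDegree (β : ProjectiveSpecialLinearGroup (Fin 3) F → ℂ) :=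
    Nat.Coprime.mul_dvd_of_dvd_of_dvd (by norm_num) (hβ 73 (by norm_num) (Or.inl (by rw [h]; norm_num)))
      (hβ 7 (by norm_num) (Or.inl (by rw [h]; norm_num)))
  exact kite_of (a := 3) (b := 73) (c := 7) (d := 2) (by norm_num) (by norm_num) (by norm_num) (by norm_num)
    (by norm_num) (by norm_num) (by norm_num) (by norm_num) (by norm_num) (by norm_num)
    (φ := φ) (ψ₁ := α) (ψ₂ := β) (ψ₃ := ψ) (ψ₄ := σ)
    (by rw [h1]; norm_num) h4 h5 (by rw [h2]; norm_num) (by rw [h3]; norm_num)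

theorem kite_seven (h : Fintype.card F = 7) : Kite (ProjectiveSpecialLinearGroup (Fin 3) F) := by
  classical
  have hC : ∀ m, 1 ≤ m → HasCusp F m := fun m hm => Main.hasCusp F m hm
  obtain ⟨ψ, hψ⟩ := t3 (F := F) (n := 3) (by norm_num)
  obtain ⟨σ, s, hs, hσ⟩ := exists_st (F := F) (by omega) (by omega)
  obtain ⟨β, hβ⟩ := exB (F := F) (n := 3) (by norm_num) (hC 2 (by norm_num))
  rw [h] at hψ hs hσ
  norm_num at hs
  have h2 : charDegree (ψ : ProjectiveSpecialLinearGroup (Fin 3) F → ℂ) = 56 := by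
    rw [hψ]; simp [Finset.sum_range_succ]
  have h3 : 19 * 7 ∣ charDegree (σ : ProjectiveSpecialLinearGroup (Fin 3) F → ℂ) := by
    rcases (Nat.dvd_prime Nat.prime_three).1 hs with rfl | rfl
    · exact ⟨3, by omega⟩
    · exact ⟨1, by omega⟩
  have b2 := hβ 2 (by norm_num) (Or.inl (by rw [h]; norm_num))
  have b3 := hβ 3 (by norm_num) (Or.inl (by rw [h]; norm_num))
  have b19 := hβ 19 (by norm_num) (Or.inl (by rw [h]; norm_num))
  exact kite_of (a := 2) (b := 19) (c := 3) (d := 7) (by norm_num) (by norm_num) (by norm_num) (by norm_num)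
    (by norm_num) (by norm_num) (by norm_num) (by norm_num) (by norm_num) (by norm_num)
    (φ := β) (ψ₁ := β) (ψ₂ := β) (ψ₃ := ψ) (ψ₄ := σ)
    (Nat.Coprime.mul_dvd_of_dvd_of_dvd (by norm_num) b2 b19) (Nat.Coprime.mul_dvd_of_dvd_of_dvd (by norm_num) b2 b3)
    (Nat.Coprime.mul_dvd_of_dvd_of_dvd (by norm_num) b19 b3) (by rw [h2]; norm_num) h3

theorem kite_four_three (h : Fintype.card F = 3) : Kite (ProjectiveSpecialLinearGroup (Fin 4) F) := by
  obtain ⟨φ, t, ht, hφ⟩ := t7 (F := F) (Main.hasCusp F 2 (by norm_num))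
  rw [h] at ht hφ
  norm_num at ht
  have h3 : 2 * 3 * 5 * 13 ∣ charDegree (φ : ProjectiveSpecialLinearGroup (Fin 4) F → ℂ) := by
    rcases (Nat.dvd_prime Nat.prime_two).1 ht with rfl | rfl
    · exact ⟨2, by omega⟩
    · exact ⟨1, by omega⟩
  exact kite_of (a := 2) (b := 3) (c := 5) (d := 13) (by norm_num) (by norm_num) (by norm_num) (by norm_num)
    (by norm_num) (by norm_num) (by norm_num) (by norm_num) (by norm_num) (by norm_num)
    (φ := φ) (ψ₁ := φ) (ψ₂ := φ) (ψ₃ := φ) (ψ₄ := φ)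
    (dvd_trans (by norm_num) h3) (dvd_trans (by norm_num) h3) (dvd_trans (by norm_num) h3)
    (dvd_trans (by norm_num) h3) (dvd_trans (by norm_num) h3)

/-- **`Kite` for `PSL₃(q)`, `q = 5, 7, 8, 17`.** -/
theorem kite_psl3 {S : Type v} [Group S] (h : Fintype.card F = 5 ∨ Fintype.card F = 7 ∨ Fintype.card F = 8 ∨
    Fintype.card F = 17) (e : S ≃* ProjectiveSpecialLinearGroup (Fin 3) F) : Kite S := by
  refine kite_congr e ?_
  rcases h with h | h | h | h
  · exact kite_five h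
  · exact kite_seven h
  · exact kite_eight h
  · exact kite_seventeen h

/-- **`Kite` for `PSL₄(3)`.** -/
theorem kite_psl4 {S : Type v} [Group S] (h : Fintype.card F = 3)
    (e : S ≃* ProjectiveSpecialLinearGroup (Fin 4) F) : Kite S :=
  kite_congr e (kite_four_three h)

end Cfsg.Agent.H128.KitePsl
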