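import Cfsg.Agent.H343.WitTri
import Cfsg.Agent.H517.ExcTwo

/-!
# `³D₄(q)`: the centralizer of a `p`-central element of order `p` (helper128)

`card_dvd` : `q` a power of the prime `p`, `z` of order `p` in `³D₄(q)`, `P` a Sylow `p`-subgroup commuting with `z`
whose centralizer is `⟨z⟩`: `|SL₂(q³)|` divides `2 |C(z)|`.
-/

set_option autoImplicit false

namespace Cfsg.Agent.H128.TwD4Three

open scoped Pointwise
open Subgroup Cfsg.Lie Cfsg.Lie.ChevalleyDatum Cfsg.Agent.ChevalleyStructure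

/-- `C(z)` and `C(z₀)` have the same order. -/
theorem card_centralizer {G : Type*} [Group G] [Finite G] {p : ℕ} [hp : Fact p.Prime] {z z₀ : G} (hz : orderOf z = p)
    (h₀ : z₀ ≠ 1) {P S : Sylow p G} (hP : (P : Subgroup G) ≤ centralizer ({z} : Set G))
    (hC : ∀ x : G, (∀ y ∈ (P : Subgroup G), y * x = x * y) → x ∈ zpowers z)
    (hS : (S : Subgroup G) ≤ centralizer ({z₀} : Set G)) :
    Nat.card ↥(centralizer ({z₀} : Set G)) = Nat.card ↥(centralizer ({z} : Set G)) := by
  obtain ⟨g, hg⟩ := MulAction.exists_smul_eq G S P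
  -- `g z₀ g⁻¹` centralizes `P`
  have h1 : g * z₀ * g⁻¹ ∈ zpowers z := by
    apply hC
    intro y hy
    rw [← hg] at hy
    have h3 : g⁻¹ * y * g ∈ (S : Subgroup G) := by
      have h2 : (MulAut.conj g)⁻¹ • y ∈ (S : Subgroup G) := Subgroup.mem_pointwise_smul_iff_inv_smul_mem.1 hy
      have : (MulAut.conj g)⁻¹ • y = g⁻¹ * y * g := by
        rw [← map_inv, MulAut.smul_def, MulAut.conj_apply, inv_inv]
      rwa [this] at h2
    have h4 := mem_centralizer_singleton_iff.1 (hS h3)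
    calc y * (g * z₀ * g⁻¹) = g * ((g⁻¹ * y * g) * z₀) * g⁻¹ := by group
      _ = g * (z₀ * (g⁻¹ * y * g)) * g⁻¹ := by rw [h4]
      _ = _ := by group
  have h5 : g * z₀ * g⁻¹ ≠ 1 := by
    intro h
    exact h₀ (conj_eq_one_iff.1 h)
  -- the two cyclic groups coincide
  have h6 : zpowers (g * z₀ * g⁻¹) = zpowers z := by
    apply Subgroup.eq_of_le_of_card_ge ((zpowers_le).2 h1)
    rw [Nat.card_zpowers, Nat.card_zpowers, hz]
    have h7 : orderOf (g * z₀ * g⁻¹) ∣ p := by
      rw [← hz, ← Nat.card_zpowers z]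
      exact Subgroup.orderOf_dvd_natCard _ h1
    rcases (Nat.dvd_prime hp.out).1 h7 with h8 | h8
    · exact absurd (orderOf_eq_one_iff.1 h8) h5
    · exact h8.ge
  have h7 : centralizer ({z} : Set G) = centralizer ({g * z₀ * g⁻¹} : Set G) := by
    have h8 : ∀ a b : G, zpowers a ≤ zpowers b → centralizer ({b} : Set G) ≤ centralizer ({a} : Set G) := by
      intro a b hab x hx
      rw [mem_centralizer_singleton_iff] at hx ⊢
      obtain ⟨n, hn⟩ := mem_zpowers_iff.1 (hab (mem_zpowers a))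
      rw [← hn]
      exact ((show Commute x b from hx).zpow_right n).eq
    exact le_antisymm (h8 _ _ h6.le) (h8 _ _ h6.ge)
  rw [h7]
  refine Nat.card_congr (Equiv.subtypeEquiv (MulAut.conj g).toEquiv ?_)
  intro x
  rw [mem_centralizer_singleton_iff, mem_centralizer_singleton_iff]
  change _ ↔ (g * x * g⁻¹) * (g * z₀ * g⁻¹) = (g * z₀ * g⁻¹) * (g * x * g⁻¹)
  constructor
  · intro h
    calc (g * x * g⁻¹) * (g * z₀ * g⁻¹) = g * (x * z₀) * g⁻¹ := by group
      _ = g * (z₀ * x) * g⁻¹ := by rw [h]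
      _ = _ := by group
  · intro h
    have h9 : g * (x * z₀) * g⁻¹ = g * (z₀ * x) * g⁻¹ := by
      calc g * (x * z₀) * g⁻¹ = (g * x * g⁻¹) * (g * z₀ * g⁻¹) := by group
        _ = (g * z₀ * g⁻¹) * (g * x * g⁻¹) := h
        _ = _ := by group
    exact mul_left_cancel (mul_right_cancel h9)

theorem inList : Elts.InList chevD4 := by simp

/-- `x₂₃(1)` is central in `U` -/
theorem comm_pos {K : Type*} [Field K] {x : GL chevD4.Idx K} (hx : x ∈ chevD4.posUnipotent K) :
    x * Elts.xG inList 23 (1 : K) = Elts.xG inList 23 1 * x := by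
  unfold posUnipotent at hx
  induction hx using Subgroup.closure_induction with
  | mem y hy =>
    obtain ⟨r, t, hr, hy⟩ := hy
    have h1 : y = Elts.xG inList r t := Units.ext hy
    subst h1
    by_cases h23 : r = 23
    · subst h23
      rw [Elts.xG_add, Elts.xG_add, add_comm]
    · have h2 : ∀ r, r < 24 → chevD4.IsPosRoot r → r ≠ 23 → H517.ExcTwo.okComm chevD4 23 r = true := by
        decide +kernel
      have h3 : r < 24 := hr.1
      exact H517.ExcTwo.comm_of_ok inList (h2 r h3 hr h23) 1 t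
  | one => rw [one_mul, mul_one]
  | mul a b _ _ ha hb => rw [mul_assoc, hb, ← mul_assoc, ha, mul_assoc]
  | inv a _ ha =>
    exact (show Commute a (Elts.xG inList 23 (1 : K)) from ha).inv_left.eq

/-- **Centralizers of `p`-central elements of order `p` in `³D₄(q)`.** -/
theorem card_dvd {K : Type*} [Field K] [Fintype K] {q p n : ℕ} [hp : Fact p.Prime] (hn : q = p ^ n) (hn0 : n ≠ 0)
    (hK : Fintype.card K = q ^ 3)
    (hc : Nat.card ↥(twistedD4 K q) = q ^ 12 * (q ^ 2 - 1) * (q ^ 6 - 1) * (q ^ 8 + q ^ 4 + 1))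
    {z : ↥(twistedD4 K q)} (hz : orderOf z = p) {P : Sylow p ↥(twistedD4 K q)}
    (hP : (P : Subgroup ↥(twistedD4 K q)) ≤ centralizer ({z} : Set ↥(twistedD4 K q)))
    (hC : ∀ x : ↥(twistedD4 K q), (∀ y ∈ (P : Subgroup ↥(twistedD4 K q)), y * x = x * y) → x ∈ zpowers z) :
    Nat.card (Matrix.SpecialLinearGroup (Fin 2) K) ∣
      2 * Nat.card ↥(centralizer ({z} : Set ↥(twistedD4 K q))) := by
  have hq : IsPrimePow q := by
    rw [hn]
    exact hp.out.isPrimePow.pow hn0
  have hpq : p ∣ q := by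
    rw [hn]
    exact dvd_pow_self p hn0
  have hq1 : 1 ≤ q := hq.one_lt.le
  obtain ⟨φ, hφ⟩ := D4Fixed.exists_frob (K := K) hq hK
  have hmem : Elts.xG inList 23 (1 : K) ∈ twistedD4 K q := by
    rw [H343.Tri.xG_eq']
    exact H343.Tri.mem_23 hφ (map_one φ)
  let z₀ : ↥(twistedD4 K q) := ⟨Elts.xG inList 23 1, hmem⟩
  have hz₀ : z₀ ≠ 1 := by
    intro h
    have h1 := congrArg Subtype.val h
    rw [Subgroup.coe_one] at h1
    have h2 := (Elts.xG_eq_one_iff inList (r := 23) (by decide) 1).1 h1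
    exact one_ne_zero h2
  -- the Sylow subgroup
  have hcU : Nat.card ↥((chevD4.posUnipotent K).subgroupOf (twistedD4 K q)) = q ^ 12 := by
    rw [← Subgroup.card_map_of_injective (K := (chevD4.posUnipotent K).subgroupOf (twistedD4 K q))
      (twistedD4 K q).subtype_injective, Subgroup.subgroupOf_map_subtype]
    exact D4U.card_U1 hq hK
  have hUp : IsPGroup p ↥((chevD4.posUnipotent K).subgroupOf (twistedD4 K q)) := by
    apply IsPGroup.of_card (n := n * 12)
    rw [pow_mul, ← hn]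
    exact hcU
  have hindex : ¬ p ∣ ((chevD4.posUnipotent K).subgroupOf (twistedD4 K q)).index := by
    have h1 := ((chevD4.posUnipotent K).subgroupOf (twistedD4 K q)).card_mul_index
    rw [hcU, hc, mul_assoc, mul_assoc] at h1
    have h2 := Nat.eq_of_mul_eq_mul_left (pow_pos (by omega : 0 < q) 12) h1
    have h3 : ∀ k, k ≠ 0 → ¬ p ∣ q ^ k - 1 := by
      intro k hk h
      have h4 : p ∣ q ^ k := hpq.trans (dvd_pow_self q hk)
      have h5 : 1 ≤ q ^ k := Nat.one_le_pow _ _ hq1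
      have h6 := (Nat.dvd_sub h4 h)
      rw [show q ^ k - (q ^ k - 1) = 1 by omega] at h6
      exact hp.out.one_lt.ne' (Nat.dvd_one.1 h6)
    rw [h2, hp.out.dvd_mul, hp.out.dvd_mul]
    rintro (h | h | h)
    · exact h3 2 (by norm_num) h
    · exact h3 6 (by norm_num) h
    · have h5 : p ∣ q ^ 8 + q ^ 4 := dvd_add (dvd_pow hpq (by norm_num)) (dvd_pow hpq (by norm_num))
      have h6 := (Nat.dvd_add_right h5).1 h
      exact hp.out.one_lt.ne' (Nat.dvd_one.1 h6)
  let S : Sylow p ↥(twistedD4 K q) := hUp.toSylow hindex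
  have hS : (S : Subgroup ↥(twistedD4 K q)) ≤ centralizer ({z₀} : Set ↥(twistedD4 K q)) := by
    intro x hx
    rw [mem_centralizer_singleton_iff]
    exact Subtype.ext (comm_pos hx)
  rw [← card_centralizer hz hz₀ hP hC hS]
  -- the subgroup `SL₂(q³)`
  let g : Matrix.SpecialLinearGroup (Fin 2) K →* twistedD4 K q :=
    (H343.Tri.shHom φ).codRestrict (twistedD4 K q) (H343.Tri.shHom_mem hφ)
  refine H343.card_dvd_two_mul g ?_ _ ?_
  · intro x hx
    exact H343.Tri.shHom_ker φ (congrArg Subtype.val hx)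
  · intro b
    apply Subtype.ext
    have e1 : Elts.xG inList 23 (1 : K) = H343.rootHom₀ ETable.Exc.inList_D4 (RingHom.id K) H343.Tri.l23 (SL2Hom.up 1) := by
      rw [H343.rootHom₀_up]
      rfl
    change Elts.xG inList 23 1 * H343.Tri.sh φ b = H343.Tri.sh φ b * Elts.xG inList 23 1
    rw [e1]
    have c1 : Commute (H343.rootHom₀ ETable.Exc.inList_D4 (RingHom.id K) H343.Tri.l23 (SL2Hom.up 1))
        (H343.rootHom₀ ETable.Exc.inList_D4 (RingHom.id K) H343.Tri.l18 b) :=
      H343.Tri.rootHom₀_comm (RingHom.id K) (RingHom.id K) _ _ H343.Tri.so_23_18 _ b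
    have c2 : Commute (H343.rootHom₀ ETable.Exc.inList_D4 (RingHom.id K) H343.Tri.l23 (SL2Hom.up 1))
        (H343.rootHom₀ ETable.Exc.inList_D4 φ H343.Tri.l13 b) :=
      H343.Tri.rootHom₀_comm (RingHom.id K) φ _ _ H343.Tri.so_23_13 _ b
    have c3 : Commute (H343.rootHom₀ ETable.Exc.inList_D4 (RingHom.id K) H343.Tri.l23 (SL2Hom.up 1))
        (H343.rootHom₀ ETable.Exc.inList_D4 (φ.comp φ) H343.Tri.l12 b) :=
      H343.Tri.rootHom₀_comm (RingHom.id K) (φ.comp φ) _ _ H343.Tri.so_23_12 _ b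
    exact (c1.mul_right (c2.mul_right c3)).eq

end Cfsg.Agent.H128.TwD4Three
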