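import Cfsg.Agent.H243.Fac
import Cfsg.Agent.H128.Char3
import Cfsg.Agent.H128.OPlus8
import Cfsg.Agent.H128.TwF4Ab
import Cfsg.Agent.H128.TwD4Three
import Cfsg.Agent.S2121

/-!
# The rows of the elimination for `Fi₂₃` and the Baby Monster (helper128)

* `classical_B`, `classical_F` : `K` is not a classical group;
* `g2_three`, `f4_three`, `e6_three`, `e7_three`, `e8_three`, `te6_three` : `K` is not one of these groups in
  characteristic three; `td4_three_B`, `td4_three_F` : nor `³D₄(3 ^ f)`; `ree`, `tf4` : nor `²G₂(q)`, `²F₄(q)`.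
-/

set_option autoImplicit false

namespace Cfsg.Agent.H128.RowsFac

open Cfsg Subgroup OrdDiv Cross3 Char3 H243 AbelianClassical H341.ThreeList

universe u

variable {K : Type u} [Group K] {z : K}

theorem hyp (h : Fac K z) : Hyp K := ⟨h.d12, h.n14, h.ab⟩

theorem hyp3_B (h : FacB K z) : Hyp3 K := ⟨hyp h.toFac, fun hn => absurd h.d13 hn⟩

theorem hyp3_F (h : FacF K z) : Hyp3 K := ⟨hyp h.toFac, h.out3⟩

/-! ### classical groups -/

theorem not_psl (h : Hyp3 K) : ¬ IsPSL K := by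
  rintro ⟨F, _, _, n, hn, -, ⟨e⟩⟩
  by_cases h3 : 3 ∣ Fintype.card F
  · exact psl_three hn h3 (h.congr e)
  · exact psl_false hn h3 (h.congr e).toHyp

theorem not_psp (h : Hyp3 K) : ¬ IsPSp K := by
  rintro ⟨F, _, _, n, hn, -, ⟨e⟩⟩
  by_cases h3 : 3 ∣ Fintype.card F
  · exact psp_three hn h3 (h.congr e)
  · exact psp_false (by omega) h3 (h.congr e).toHyp

theorem not_psu (h : Hyp3 K) : ¬ IsPSU K := by
  rintro ⟨F, _, _, n, q, hF, hn, -, ⟨e⟩⟩
  by_cases h3 : 3 ∣ q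
  · exact psu_three hF hn h3 (h.congr e)
  · exact psu_false hF (by omega) h3 (h.congr e).toHyp

theorem not_oodd (h : Hyp3 K) : ¬ IsPOmegaOdd K := by
  rintro ⟨F, _, _, m, hm, ho, ⟨e⟩⟩
  by_cases h3 : 3 ∣ Fintype.card F
  · exact oodd_three hm ho h3 (h.congr e)
  · exact Cross3.oodd_false hm ho h3 (h.congr e).toHyp

theorem not_ominus (h : Hyp3 K) : ¬ IsPOmegaMinus K := by
  rintro ⟨F, _, _, m, a, b, hm, hab, ⟨e⟩⟩
  by_cases h3 : 3 ∣ Fintype.card F
  · exact ominus_three hm hab h3 (h.congr e)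
  · exact Cross3.ominus_false hm hab h3 (h.congr e).toHyp

theorem oplus (h : Hyp3 K) (hK : IsPOmegaPlus K) : ∃ (F : Type) (_ : Field F) (_ : Fintype F),
    Fintype.card F = 3 ∧ Nonempty (K ≃* POmega F (quadFormPlus 4 F)) := by
  obtain ⟨F, _, _, m, hm, ⟨e⟩⟩ := hK
  by_cases h3 : 3 ∣ Fintype.card F
  · obtain ⟨rfl, hF⟩ := oplus_three hm h3 (h.congr e)
    exact ⟨F, inferInstance, inferInstance, hF, ⟨e⟩⟩
  · exact (Cross3.oplus_false hm h3 (h.congr e).toHyp).elim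

theorem not_oplus_B (h : FacB K z) : ¬ IsPOmegaPlus K := by
  intro hK
  obtain ⟨F, _, _, hF, ⟨e⟩⟩ := oplus (hyp3_B h) hK
  have hc := S0293.result (F := F) rfl 4 le_rfl
  have hq1 : 1 ≤ Fintype.card F := Fintype.card_pos
  have h3 : 3 ∣ Fintype.card F := by rw [hF]
  have hr : ¬ 3 ∣ (Fintype.card F ^ 4 - 1) * ∏ i ∈ Finset.range (4 - 1), (Fintype.card F ^ (2 * (i + 1)) - 1) :=
    not_dvd_mul (not_dvd_sub_one h3 hq1 (by omega)) (not_dvd_prod _ _ fun j _ => not_dvd_sub_one h3 hq1 (by omega))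
  rw [mul_assoc] at hc
  have h1 := h.d13
  rw [Nat.card_congr e.toEquiv] at h1
  have h2 := (Char3.pow_dvd_iff (f := 1) not_dvd_gcd_four hr (by rw [hF, pow_one]) hc).1 h1
  omega

/-- `PΩ₈⁺(3)` -/
theorem not_oplus_F (h : FacF K z) : ¬ IsPOmegaPlus K := by
  have : Fact (Nat.Prime 3) := ⟨Nat.prime_three⟩
  intro hK
  obtain ⟨F, _, _, hF, ⟨e⟩⟩ := oplus (hyp3_F h) hK
  have hfin : Finite K := by
    have := finite_pomega (quadFormPlus 4 F)
    exact Finite.of_equiv _ e.symm.toEquiv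
  obtain ⟨W, hW, hWC, a, ha, b, hb, hN⟩ := h.nc
  obtain ⟨P, hP, hC⟩ := h.syl
  -- `P` as a Sylow subgroup of the centralizer
  let P1 : Sylow 3 ↥(centralizer ({z} : Set K)) := P.subtype hP
  have hW1 : IsPGroup 3 ↥(W.subgroupOf (centralizer ({z} : Set K))) := hW.comap_subtype
  obtain ⟨P2, hP2⟩ := hW1.exists_le_sylow
  obtain ⟨g, hg⟩ := MulAction.exists_smul_eq ↥(centralizer ({z} : Set K)) P1 P2
  let P3 : Sylow 3 K := (g : K) • P
  have hP3 : ∀ x ∈ W, x ∈ P3 := by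
    intro x hx
    have h1 : (⟨x, hWC hx⟩ : ↥(centralizer ({z} : Set K))) ∈ P2 := hP2 hx
    rw [← hg] at h1
    have h2 : (MulAut.conj g)⁻¹ • (⟨x, hWC hx⟩ : ↥(centralizer ({z} : Set K))) ∈ (P1 : Subgroup _) :=
      Subgroup.mem_pointwise_smul_iff_inv_smul_mem.1 h1
    have h3 : (g : K)⁻¹ * x * g ∈ (P : Subgroup K) := by
      rw [← map_inv, MulAut.smul_def, MulAut.conj_apply, inv_inv] at h2
      exact h2
    refine Subgroup.mem_pointwise_smul_iff_inv_smul_mem.2 ?_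
    rw [← map_inv, MulAut.smul_def, MulAut.conj_apply, inv_inv]
    exact h3
  have hP3c : ∀ x ∈ P3, ∃ y ∈ (P : Subgroup K), x = g * y * (g : K)⁻¹ := by
    intro x hx
    have h2 : (MulAut.conj (g : K))⁻¹ • x ∈ (P : Subgroup K) := Subgroup.mem_pointwise_smul_iff_inv_smul_mem.1 hx
    rw [← map_inv, MulAut.smul_def, MulAut.conj_apply, inv_inv] at h2
    exact ⟨_, h2, by group⟩
  have hP3m : ∀ y ∈ (P : Subgroup K), g * y * (g : K)⁻¹ ∈ P3 := by
    intro y hy
    refine Subgroup.mem_pointwise_smul_iff_inv_smul_mem.2 ?_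
    rw [← map_inv, MulAut.smul_def, MulAut.conj_apply, inv_inv]
    have : (g : K)⁻¹ * (g * y * (g : K)⁻¹) * g = y := by group
    rw [this]
    exact hy
  have hP3C : (P3 : Subgroup K) ≤ centralizer ({z} : Set K) := by
    intro x hx
    obtain ⟨y, hy, rfl⟩ := hP3c x hx
    exact mul_mem (mul_mem g.2 (hP hy)) (inv_mem g.2)
  obtain ⟨N, hNP, hcomm, hnorm⟩ := OPlus8.result hF e P3
  refine hN N (P3.isPGroup'.to_le hNP) (hNP.trans hP3C) ?_ (hcomm a (hP3 a ha) b (hP3 b hb))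
  -- `C(z)` normalizes `N`
  have key : ∀ c ∈ centralizer ({z} : Set K), ∀ k ∈ N, c * k * c⁻¹ ∈ N := by
    intro c hc
    apply hnorm
    intro x hx hxP
    -- `x ∈ ⟨z⟩`
    have h1 : (g : K)⁻¹ * x * g ∈ zpowers z := by
      apply hC
      intro y hy
      have h2 := hxP _ (hP3m y hy)
      calc y * ((g : K)⁻¹ * x * g) = (g : K)⁻¹ * ((g * y * (g : K)⁻¹) * x) * g := by group
        _ = (g : K)⁻¹ * (x * (g * y * (g : K)⁻¹)) * g := by rw [h2]
        _ = _ := by group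
    obtain ⟨n, hn⟩ := mem_zpowers_iff.1 h1
    have h3 : x = z ^ n := by
      have h4 : (g : K) * z ^ n * (g : K)⁻¹ = z ^ n := by
        have := ((show Commute (g : K) z from mem_centralizer_singleton_iff.1 g.2).zpow_right n).eq
        rw [this, mul_inv_cancel_right]
      rw [← h4, hn]
      group
    rw [h3]
    exact ((show Commute c z from mem_centralizer_singleton_iff.1 hc).zpow_right n).eq
  intro c hc
  rw [mem_normalizer_iff]
  intro k
  constructor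
  · exact key c hc k
  · intro hk
    have h1 := key c⁻¹ (inv_mem hc) _ hk
    have : c⁻¹ * (c * k * c⁻¹) * c⁻¹⁻¹ = k := by group
    rwa [this] at h1

/-- **No classical group in the case `B`.** -/
theorem classical_B (h : FacB K z) : ¬ IsPSL K ∧ ¬ IsPSp K ∧ ¬ IsPSU K ∧ ¬ IsPOmegaOdd K ∧ ¬ IsPOmegaPlus K ∧
    ¬ IsPOmegaMinus K :=
  ⟨not_psl (hyp3_B h), not_psp (hyp3_B h), not_psu (hyp3_B h), not_oodd (hyp3_B h), not_oplus_B h,
    not_ominus (hyp3_B h)⟩

/-- **No classical group in the case `F`.** -/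
theorem classical_F (h : FacF K z) : ¬ IsPSL K ∧ ¬ IsPSp K ∧ ¬ IsPSU K ∧ ¬ IsPOmegaOdd K ∧ ¬ IsPOmegaPlus K ∧
    ¬ IsPOmegaMinus K :=
  ⟨not_psl (hyp3_F h), not_psp (hyp3_F h), not_psu (hyp3_F h), not_oodd (hyp3_F h), not_oplus_F h,
    not_ominus (hyp3_F h)⟩

/-! ### exceptional groups in characteristic three -/

section Exc

variable {F : Type} [Field F] [Fintype F]

theorem card_pow (h3 : 3 ∣ Fintype.card F) {q k : ℕ} (hF : Fintype.card F = q ^ k) (hk : k ≠ 0) :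
    ∃ f, 1 ≤ f ∧ q = 3 ^ f ∧ CharP F 3 := by
  obtain ⟨f, hf, hcard, hchar⟩ := char_three h3
  have h1 : q ∣ 3 ^ f := by
    rw [← hcard, hF]
    exact dvd_pow_self q hk
  obtain ⟨l, -, hl⟩ := (Nat.dvd_prime_pow Nat.prime_three).1 h1
  refine ⟨l, ?_, hl, hchar⟩
  by_contra hcon
  have h2 : l = 0 := by omega
  rw [hl, h2, pow_zero, one_pow] at hF
  rw [hF] at h3
  norm_num at h3

theorem g2_three (T : OrderTable.{u}) (h : Hyp3 K) (h3 : 3 ∣ Fintype.card F) (e : K ≃* Lie.chevG2.group F) :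
    False := by
  obtain ⟨f, hf, hcard, hchar⟩ := char_three h3
  have : Fact (Nat.Prime 3) := ⟨Nat.prime_three⟩
  have h' := h.congr e
  have hq1 : 1 ≤ Fintype.card F := Fintype.card_pos
  have hc : 1 * Nat.card ↥(Lie.chevG2.group F) =
      Fintype.card F ^ 6 * ((Fintype.card F ^ 2 - 1) * (Fintype.card F ^ 6 - 1)) := by
    rw [one_mul, T.g2 F, mul_assoc]
  have hr : ¬ 3 ∣ (Fintype.card F ^ 2 - 1) * (Fintype.card F ^ 6 - 1) :=
    not_dvd_mul (not_dvd_sub_one h3 hq1 (by norm_num)) (not_dvd_sub_one h3 hq1 (by norm_num))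
  have hb := Hyp.bounds h'.toHyp (by norm_num) hr hcard hc
  have hf2 : f = 2 := by omega
  subst hf2
  have h1 := h'.out_dvd (by norm_num) hr hcard hc (by norm_num)
  rw [S2121.result (F := F) 3 2 hcard (by norm_num), if_pos rfl] at h1
  norm_num at h1

theorem f4_three (T : OrderTable.{u}) (h : Hyp K) (h3 : 3 ∣ Fintype.card F) (e : K ≃* Lie.chevF4.group F) :
    False := by
  obtain ⟨f, hf, hcard, hchar⟩ := char_three h3
  apply h.h14
  rw [Nat.card_congr e.toEquiv, T.f4 F _ rfl, hcard]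
  refine Dvd.dvd.mul_right (Dvd.dvd.mul_right (Dvd.dvd.mul_right (Dvd.dvd.mul_right ?_ _) _) _) _
  rw [← pow_mul]
  exact pow_dvd_pow 3 (by omega)

theorem not_dvd_gcd_three {m : ℕ} (h3 : ¬ 3 ∣ m) : ¬ 3 ∣ Nat.gcd 3 m := fun h => h3 (h.trans (Nat.gcd_dvd_right _ _))

theorem e6_three (T : OrderTable.{u}) (h : Hyp K) (h3 : 3 ∣ Fintype.card F) (e : K ≃* Lie.chevE6.group F) :
    False := by
  obtain ⟨f, hf, hcard, hchar⟩ := char_three h3
  have hq1 : 1 ≤ Fintype.card F := Fintype.card_pos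
  apply h.h14
  have hc := T.e6 F _ rfl
  rw [← Nat.card_congr e.toEquiv] at hc
  refine Cross3.of_mul' (not_dvd_gcd_three ?_) hc ?_
  · have := not_dvd_sub_one (k := 1) h3 hq1 (by norm_num)
    rwa [pow_one] at this
  · rw [hcard]
    iterate 6 apply Dvd.dvd.mul_right
    rw [← pow_mul]
    exact pow_dvd_pow 3 (by omega)

theorem e7_three (T : OrderTable.{u}) (h : Hyp K) (h3 : 3 ∣ Fintype.card F) (e : K ≃* Lie.chevE7.group F) :
    False := by
  obtain ⟨f, hf, hcard, hchar⟩ := char_three h3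
  apply h.h14
  have hc := T.e7 F _ rfl
  rw [← Nat.card_congr e.toEquiv] at hc
  refine Cross3.of_mul' not_dvd_gcd_two hc ?_
  rw [hcard]
  iterate 7 apply Dvd.dvd.mul_right
  rw [← pow_mul]
  exact pow_dvd_pow 3 (by omega)

theorem e8_three (T : OrderTable.{u}) (h : Hyp K) (h3 : 3 ∣ Fintype.card F) (e : K ≃* Lie.chevE8.group F) :
    False := by
  obtain ⟨f, hf, hcard, hchar⟩ := char_three h3
  apply h.h14
  rw [Nat.card_congr e.toEquiv, T.e8 F _ rfl, hcard]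
  iterate 8 apply Dvd.dvd.mul_right
  rw [← pow_mul]
  exact pow_dvd_pow 3 (by omega)

theorem te6_three (T : OrderTable.{u}) (h : Hyp K) {q : ℕ} (hq : IsPrimePow q) (hF : Fintype.card F = q ^ 2)
    (h3 : 3 ∣ Fintype.card F) (e : K ≃* Lie.twistedE6 F q) : False := by
  obtain ⟨f, hf, hqf, hchar⟩ := card_pow h3 hF (by norm_num)
  have hq3 : 3 ∣ q := by
    rw [hqf]
    exact dvd_pow_self 3 (by omega)
  apply h.h14
  have hc := T.te6 F q hq hF
  rw [← Nat.card_congr e.toEquiv] at hc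
  refine Cross3.of_mul' (not_dvd_gcd_three ?_) hc ?_
  · have := not_dvd_add_one (k := 1) hq3 (by norm_num)
    rwa [pow_one] at this
  · rw [hqf]
    iterate 6 apply Dvd.dvd.mul_right
    rw [← pow_mul]
    exact pow_dvd_pow 3 (by omega)

/-- `³D₄(3 ^ f)`, `f ≥ 2` by the order -/
theorem td4_aux (T : OrderTable.{u}) (h : Hyp K) {q : ℕ} (hq : IsPrimePow q) (hF : Fintype.card F = q ^ 3)
    (h3 : 3 ∣ Fintype.card F) (e : K ≃* Lie.twistedD4 F q) : q = 3 ∧ ¬ 3 ^ 13 ∣ Nat.card K := by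
  obtain ⟨f, hf, hqf, hchar⟩ := card_pow h3 hF (by norm_num)
  have hq3 : 3 ∣ q := by
    rw [hqf]
    exact dvd_pow_self 3 (by omega)
  have hq1 : 1 ≤ q := hq.one_lt.le
  have hc : 1 * Nat.card K = q ^ 12 * ((q ^ 2 - 1) * (q ^ 6 - 1) * (q ^ 8 + q ^ 4 + 1)) := by
    rw [one_mul, Nat.card_congr e.toEquiv, T.td4 F q hq hF]
    ring
  have hr : ¬ 3 ∣ (q ^ 2 - 1) * (q ^ 6 - 1) * (q ^ 8 + q ^ 4 + 1) := by
    refine not_dvd_mul (not_dvd_mul (not_dvd_sub_one hq3 hq1 (by norm_num)) (not_dvd_sub_one hq3 hq1 (by norm_num))) ?_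
    intro h1
    have h2 : 3 ∣ q ^ 8 + q ^ 4 := dvd_add (dvd_pow hq3 (by norm_num)) (dvd_pow hq3 (by norm_num))
    have h3 := (Nat.dvd_add_right h2).1 h1
    norm_num at h3
  have hb := Hyp.bounds h (by norm_num) hr hqf hc
  have hf1 : f = 1 := by omega
  subst hf1
  refine ⟨by rw [hqf, pow_one], ?_⟩
  intro h13
  have := (Char3.pow_dvd_iff (by norm_num) hr hqf hc).1 h13
  omega

theorem td4_three_B (T : OrderTable.{u}) (h : FacB K z) {q : ℕ} (hq : IsPrimePow q) (hF : Fintype.card F = q ^ 3)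
    (h3 : 3 ∣ Fintype.card F) (e : K ≃* Lie.twistedD4 F q) : False :=
  (td4_aux T (hyp h.toFac) hq hF h3 e).2 h.d13

theorem td4_three_F (T : OrderTable.{u}) (h : FacF K z) {q : ℕ} (hq : IsPrimePow q) (hF : Fintype.card F = q ^ 3)
    (h3 : 3 ∣ Fintype.card F) (e : K ≃* Lie.twistedD4 F q) : False := by
  have : Fact (Nat.Prime 3) := ⟨Nat.prime_three⟩
  obtain ⟨rfl, -⟩ := td4_aux T (hyp h.toFac) hq hF h3 e
  obtain ⟨P, hP, hC⟩ := h.syl
  have hfin : Finite K := Finite.of_equiv _ e.symm.toEquiv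
  -- transport
  have hP' : ((P.mapSurjective (f := e.toMonoidHom) e.surjective : Sylow 3 ↥(Lie.twistedD4 F 3)) :
      Subgroup ↥(Lie.twistedD4 F 3)) ≤ centralizer ({e z} : Set ↥(Lie.twistedD4 F 3)) := by
    rintro _ ⟨x, hx, rfl⟩
    rw [mem_centralizer_singleton_iff]
    change e x * e z = e z * e x
    rw [← map_mul, ← map_mul, mem_centralizer_singleton_iff.1 (hP hx)]
  have hC' : ∀ x : ↥(Lie.twistedD4 F 3), (∀ y ∈ ((P.mapSurjective (f := e.toMonoidHom) e.surjective :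
      Sylow 3 ↥(Lie.twistedD4 F 3)) : Subgroup ↥(Lie.twistedD4 F 3)), y * x = x * y) → x ∈ zpowers (e z) := by
    intro x hx
    have h1 : e.symm x ∈ zpowers z := by
      apply hC
      intro y hy
      apply e.injective
      rw [map_mul, map_mul, e.apply_symm_apply]
      exact hx _ ⟨y, hy, rfl⟩
    obtain ⟨n, hn⟩ := mem_zpowers_iff.1 h1
    refine mem_zpowers_iff.2 ⟨n, ?_⟩
    rw [← map_zpow, hn, e.apply_symm_apply]
  have hd := TwD4Three.card_dvd (p := 3) (n := 1) (by norm_num) (by norm_num) hF (T.td4 F 3 hq hF)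
    (z := e z) (by rw [MulEquiv.orderOf_eq]; exact h.ord) hP' hC'
  rw [ClassicalGeometry.PSL2Basic.card_SL2, hF] at hd
  have hcard : Nat.card ↥(centralizer ({e z} : Set ↥(Lie.twistedD4 F 3))) = Nat.card ↥(centralizer ({z} : Set K)) := by
    refine (Nat.card_congr (Equiv.subtypeEquiv e.toEquiv ?_)).symm
    intro x
    rw [mem_centralizer_singleton_iff, mem_centralizer_singleton_iff]
    change _ ↔ e x * e z = e z * e x
    rw [← map_mul, ← map_mul, e.injective.eq_iff]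
  rw [hcard] at hd
  have h7 : 7 ∣ 2 * (2 ^ 10 * 3 ^ 13) := by
    refine dvd_trans ?_ (hd.trans (Nat.mul_dvd_mul_left 2 h.cd'))
    norm_num
  norm_num at h7

theorem ree (T : OrderTable.{u}) (h : Hyp K) {m : ℕ} (hm : 1 ≤ m) (hF : Fintype.card F = 3 ^ (2 * m + 1))
    (e : K ≃* Lie.twistedG2 F (3 ^ m)) : False := by
  have hc : 1 * Nat.card K = (3 ^ (2 * m + 1)) ^ 3 * ((3 ^ (2 * m + 1) - 1) * ((3 ^ (2 * m + 1)) ^ 3 + 1)) := by
    rw [one_mul, Nat.card_congr e.toEquiv, T.ree F m hm hF]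
    ring
  have hq3 : 3 ∣ 3 ^ (2 * m + 1) := dvd_pow_self 3 (by omega)
  have hr : ¬ 3 ∣ (3 ^ (2 * m + 1) - 1) * ((3 ^ (2 * m + 1)) ^ 3 + 1) := by
    refine not_dvd_mul ?_ (not_dvd_add_one hq3 (by norm_num))
    have := not_dvd_sub_one (k := 1) hq3 (Nat.one_le_pow _ _ (by norm_num)) (by norm_num)
    rwa [pow_one] at this
  have hb := Hyp.bounds h (by norm_num) hr rfl hc
  omega

theorem tf4 (T : OrderTable.{u}) (h : Hyp K) {m : ℕ} (hm : 1 ≤ m) (hF : Fintype.card F = 2 ^ (2 * m + 1))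
    (e : K ≃* Lie.twistedF4 F (2 ^ m)) : False := by
  have hab := TwF4Ab.hasAb hm hF (T.tf4 F m hm hF)
  have := (h.congr e).le hab
  omega

end Exc

end Cfsg.Agent.H128.RowsFac
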